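import Mathlib
import Cfsg.Agent.Lib.Core.HallSZ
import Cfsg.Agent.Lib.S3C.Defs

/-! The number of conjugacy classes of a permutation group, prime by prime. -/

set_option autoImplicit false
set_option linter.unusedSectionVars false

namespace H62.KR

open Subgroup MulAction Finset
open scoped Pointwise

variable {G X : Type} [Group G] [Finite G] [Fintype X] [DecidableEq X] [MulAction G X]

/-- The number of cycles. -/
noncomputable def cyc (X : Type) [MulAction G X] (g : G) : ℕ := Nat.card (orbitRel.Quotient (zpowers g) X)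

/-- All prime divisors of the order are at most `p`. -/
def Sm (p : ℕ) (g : G) : Prop := ∀ q : ℕ, q.Prime → q ∣ orderOf g → q ≤ p

/-- A bound for the number of classes of `p`-smooth elements. -/
def Cov (p : ℕ) (a : ℝ) : Prop :=
  ∀ (G X : Type) [Group G] [Finite G] [Finite X] [MulAction G X] [FaithfulSMul G X],
    ∃ T : Finset G, (T.card : ℝ) ≤ a ^ Nat.card X ∧ ∀ g : G, Sm p g → ∃ t ∈ T, IsConj t g

theorem eqns_kr : True := by
  have := @cyc.eq_1
  have := @Sm.eq_1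
  have := @Cov.eq_1
  trivial

theorem le_orbit {p : ℕ} [Fact p.Prime] {N : Subgroup G} (hN : IsPGroup p N) {a : X} {n : G} (hn : n ∈ N)
    (h : n • a ≠ a) {S : Finset X} (hS : ∀ g ∈ N, g • a ∈ S) : p ≤ S.card := by
  obtain ⟨k, hk⟩ := hN.card_orbit a
  have h1 : Nat.card (orbit N a) ≤ S.card := by
    rw [← Fintype.card_coe S, ← Nat.card_eq_fintype_card]
    exact Nat.card_le_card_of_injective (fun b : orbit N a => (⟨b.1, by
      obtain ⟨_, g, rfl⟩ := b
      exact hS g g.2⟩ : S)) fun b c e => Subtype.ext (congrArg (fun x : S => x.1) e)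
  rcases k with _ | k
  · rw [pow_zero, Nat.card_eq_one_iff_unique] at hk
    exact absurd (congrArg Subtype.val (hk.1.elim (⟨n • a, ⟨n, hn⟩, rfl⟩ : orbit N a) ⟨a, mem_orbit_self a⟩)) h
  · exact (Nat.le_self_pow k.succ_ne_zero p).trans (hk ▸ h1)

theorem cyc_le {p : ℕ} [Fact p.Prime] {x : G} (hx : IsPGroup p (zpowers x)) (S : Finset X)
    (hS : ∀ b, b ∈ S ↔ x • b ≠ b) : ∃ c, p * c ≤ S.card ∧ cyc X x ≤ Sᶜ.card + c := by
  classical
  let f : X → orbitRel.Quotient (zpowers x) X := Quotient.mk _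
  refine ⟨(S.image f).card, Finset.mul_card_image_le_card _ _ fun ω hω => ?_, ?_⟩
  · obtain ⟨a, ha, rfl⟩ := Finset.mem_image.1 hω
    refine le_orbit hx (mem_zpowers x) ((hS a).1 ha) ?_
    rintro _ ⟨i, rfl⟩
    refine Finset.mem_filter.2 ⟨(hS _).2 fun e => (hS a).1 ha ?_, Quotient.sound ⟨⟨_, i, rfl⟩, rfl⟩⟩
    rwa [← mul_smul, ← (Commute.zpow_left (Commute.refl x) i).eq, mul_smul, smul_left_cancel_iff] at e
  · have := Fintype.ofFinite (orbitRel.Quotient (zpowers x) X)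
    rw [cyc, Nat.card_eq_fintype_card, ← Finset.card_univ]
    refine (Finset.card_le_card (t := Sᶜ.image f ∪ S.image f) fun ω _ => ?_).trans
      ((Finset.card_union_le _ _).trans (Nat.add_le_add_right Finset.card_image_le _))
    obtain ⟨a, rfl⟩ := Quotient.exists_rep ω
    rw [← Finset.image_union]
    exact Finset.mem_image.2 ⟨a, by by_cases h : a ∈ S <;> simp [h], rfl⟩

theorem card_supp [FaithfulSMul G X] {p : ℕ} [Fact p.Prime] {P : Subgroup G} (hP : IsPGroup p P) (S : Finset X) :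
    ∃ e, (p - 1) * e ≤ S.card ∧ Nat.card (fixingSubgroup P ((S : Set X)ᶜ)) = p ^ e := by
  obtain ⟨e, he⟩ := IsPGroup.iff_card.1 (hP.to_subgroup (fixingSubgroup P ((S : Set X)ᶜ)))
  refine ⟨e, ?_, he⟩
  have h1 : Nat.card (fixingSubgroup (Equiv.Perm X) ((S : Set X)ᶜ)) = S.card.factorial := by
    rw [← Fintype.card_coe S, ← Fintype.card_perm, ← Nat.card_eq_fintype_card]
    exact Nat.card_congr ((Equiv.subtypeEquivRight fun f => by
      simp [mem_fixingSubgroup_iff]).trans (Equiv.Perm.subtypeEquivSubtypePerm (· ∈ S)).symm)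
  have h2 : p ^ e ∣ S.card.factorial := by
    rw [← he, ← h1, Nat.card_congr ((fixingSubgroup P ((S : Set X)ᶜ)).equivMapOfInjective (toPermHom P X)
      toPerm_injective).toEquiv]
    refine card_dvd_of_le ?_
    rintro _ ⟨g, hg, rfl⟩
    exact (mem_fixingSubgroup_iff _).2 ((mem_fixingSubgroup_iff _).1 hg)
  have h3 := (padicValNat_dvd_iff_le (Nat.factorial_ne_zero _)).1 h2
  have h4 := sub_one_mul_padicValNat_factorial (p := p) S.card
  calc (p - 1) * e ≤ (p - 1) * padicValNat p S.card.factorial := Nat.mul_le_mul_left _ h3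
    _ ≤ _ := by omega

theorem class_ge {p : ℕ} [Fact p.Prime] (hG : IsPGroup p G) {a : X} (h : stabilizer G a ≠ ⊤) (S : Finset X)
    (hS : ∀ b, stabilizer G b = stabilizer G a → b ∈ S) : p ≤ S.card := by
  have hnil := hG.isNilpotent
  have hnc : NormalizerCondition G := Group.normalizerCondition_of_isNilpotent
  obtain ⟨n, hn, hn'⟩ := SetLike.exists_of_lt (hnc _ h.lt_top)
  refine le_orbit (hG.to_subgroup _) hn hn' fun g hg => hS _ ?_
  rw [stabilizer_smul_eq_stabilizer_map_conj]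
  exact H3.conj_smul_eq_self_iff.2 hg

theorem num {p e c s : ℕ} {a w : ℝ} (hp : 2 ≤ p) (he : (p - 1) * e ≤ s) (hc : p * c ≤ s) (ha : 1 ≤ a) (hw : 0 ≤ w)
    (h : 2 * p * a ≤ w ^ p) : (p : ℝ) ^ e * a ^ c ≤ w ^ s := by
  obtain ⟨k, rfl⟩ : ∃ k, p = k + 1 := ⟨p - 1, by omega⟩
  rw [Nat.add_sub_cancel] at he
  refine le_of_pow_le_pow_left₀ k.succ_ne_zero (by positivity) ?_
  have h1 : ((k + 1 : ℕ) : ℝ) ≤ 2 ^ k := by exact_mod_cast Nat.lt_two_pow_self
  have h2 : (1 : ℝ) ≤ ((k + 1 : ℕ) : ℝ) := by exact_mod_cast Nat.succ_pos k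
  calc (((k + 1 : ℕ) : ℝ) ^ e * a ^ c) ^ (k + 1)
      = ((k + 1 : ℕ) : ℝ) ^ e * ((k + 1 : ℕ) : ℝ) ^ (k * e) * a ^ ((k + 1) * c) := by ring
    _ ≤ (2 ^ k) ^ e * ((k + 1 : ℕ) : ℝ) ^ s * a ^ s := by gcongr
    _ ≤ 2 ^ s * ((k + 1 : ℕ) : ℝ) ^ s * a ^ s := by rw [← pow_mul]; gcongr; norm_num
    _ = (2 * ((k + 1 : ℕ) : ℝ) * a) ^ s := by rw [mul_pow, mul_pow]
    _ ≤ (w ^ (k + 1)) ^ s := by gcongr
    _ = (w ^ s) ^ (k + 1) := by ring

theorem num2 {p n : ℕ} {a w b : ℝ} (hp : 1 ≤ p) (hn : p ≤ n) (ha : 0 ≤ a) (hw : 0 ≤ w) (hb : 0 ≤ b)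
    (h : a ^ p + w ^ p ≤ b ^ p) : w ^ n + a ^ n ≤ b ^ n := by
  obtain ⟨k, rfl⟩ := Nat.exists_eq_add_of_le hn
  have h1 : a ≤ b := le_of_pow_le_pow_left₀ (by omega : p ≠ 0) hb (by have := pow_nonneg hw p; linarith)
  have h2 : w ≤ b := le_of_pow_le_pow_left₀ (by omega : p ≠ 0) hb (by have := pow_nonneg ha p; linarith)
  calc w ^ (p + k) + a ^ (p + k) = w ^ p * w ^ k + a ^ p * a ^ k := by ring
    _ ≤ w ^ p * b ^ k + a ^ p * b ^ k := by gcongr
    _ = (a ^ p + w ^ p) * b ^ k := by ring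
    _ ≤ b ^ p * b ^ k := by gcongr
    _ = _ := by ring

theorem zsum [FaithfulSMul G X] {p : ℕ} [hp : Fact p.Prime] {P : Subgroup G} [Fintype P] (hP : IsPGroup p P)
    {a b : ℝ} (ha : 1 ≤ a) (hab : a ≤ b) (h : a ^ p + 2 * p * a ≤ b ^ p) :
    ∑ x : P, a ^ cyc X (x : G) ≤ b ^ Fintype.card X := by
  classical
  obtain ⟨w, hw, hw'⟩ : ∃ w : ℝ, 0 ≤ w ∧ w ^ p = 2 * p * a :=
    ⟨(2 * p * a) ^ (p⁻¹ : ℝ), by positivity, Real.rpow_inv_natCast_pow (by positivity) hp.out.ne_zero⟩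
  let Y : Finset (Subgroup P) := (univ.image fun b : X => stabilizer P b).erase ⊤
  let n : Subgroup P → ℕ := fun H => #{b : X | stabilizer P b = H}
  let S : Finset (Subgroup P) → Finset X := fun J => {b : X | stabilizer P b ∈ J}
  have hS : ∀ J, (S J).card = ∑ H ∈ J, n H := fun J => by
    rw [Finset.card_eq_sum_card_fiberwise (f := fun b => stabilizer P b) (t := J) fun b hb => by simpa [S] using hb]
    refine Finset.sum_congr rfl fun H hH => congrArg _ ?_
    ext b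
    simp only [S, mem_filter, mem_univ, true_and]
    exact ⟨fun h => h.2, fun h => ⟨h ▸ hH, h⟩⟩
  have hm : ∀ J ⊆ Y, (S J)ᶜ.card = (S Y)ᶜ.card + ∑ H ∈ Y \ J, n H := fun J hJ => by
    have h1 := Finset.card_add_card_compl (S J)
    have h2 := Finset.card_add_card_compl (S Y)
    have h3 := Finset.sum_sdiff (f := n) hJ
    rw [hS] at h1 h2
    omega
  rw [← Finset.sum_fiberwise_of_maps_to (s := univ) (t := Y.powerset) (g := fun x : P => Y.filter (x ∉ ·))
    fun x _ => mem_powerset.2 (filter_subset _ _)]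
  calc _ ≤ ∑ J ∈ Y.powerset, a ^ (S Y)ᶜ.card * ((∏ H ∈ J, w ^ n H) * ∏ H ∈ Y \ J, a ^ n H) := by
        refine Finset.sum_le_sum fun J hJ => ?_
        have key : ∀ x : P, Y.filter (x ∉ ·) = J → ∀ b, b ∈ S J ↔ (x : G) • b ≠ b := fun x hx b => by
          simp only [S, ← hx, Y, mem_filter, mem_univ, true_and, mem_erase, mem_image]
          exact ⟨fun h => h.2, fun h => ⟨⟨fun e => h (e ▸ mem_top x : x ∈ stabilizer P b), b, rfl⟩, h⟩⟩
        obtain ⟨e, he, hc⟩ := card_supp hP (S J)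
        have h1 : #{x : P | Y.filter (x ∉ ·) = J} ≤ p ^ e := by
          rw [← hc, ← Fintype.card_coe, ← Nat.card_eq_fintype_card]
          exact Nat.card_le_card_of_injective (fun x => ⟨x.1, (mem_fixingSubgroup_iff _).2 fun b hb => by
            by_contra h
            exact hb ((key x.1 (mem_filter.1 x.2).2 b).2 h)⟩) fun x y e => Subtype.ext (Subtype.mk.inj e)
        rw [prod_pow_eq_pow_sum, prod_pow_eq_pow_sum, ← hS, mul_left_comm, ← pow_add, ← hm J (mem_powerset.1 hJ)]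
        refine (Finset.sum_le_card_nsmul _ _ (a ^ ((S J)ᶜ.card + (S J).card / p)) fun x hx => ?_).trans ?_
        · obtain ⟨c, h2, h3⟩ := cyc_le (hP.to_le (zpowers_le.2 x.2)) (S J) (key x (mem_filter.1 hx).2)
          have := (Nat.le_div_iff_mul_le hp.out.pos).2 (mul_comm p c ▸ h2)
          exact pow_le_pow_right₀ ha (by omega)
        · have h2 := num hp.out.two_le he (Nat.mul_div_le _ p) ha hw hw'.ge
          have h3 : (#{x : P | Y.filter (x ∉ ·) = J} : ℝ) ≤ p ^ e := by exact_mod_cast h1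
          rw [nsmul_eq_mul, pow_add, mul_comm (a ^ (S J)ᶜ.card), ← mul_assoc]
          gcongr
          exact le_trans (by gcongr) h2
    _ = a ^ (S Y)ᶜ.card * ∏ H ∈ Y, (w ^ n H + a ^ n H) := by rw [prod_add, Finset.mul_sum]
    _ ≤ b ^ (S Y)ᶜ.card * ∏ H ∈ Y, b ^ n H := by
        gcongr with H hH
        · exact pow_nonneg (by linarith) _
        obtain ⟨h1, h2⟩ := mem_erase.1 hH
        obtain ⟨c, -, rfl⟩ := mem_image.1 h2
        exact num2 hp.out.one_le (class_ge hP h1 _ fun b hb => by simpa using hb) (by linarith) hw (by linarith)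
          (hw' ▸ h)
    _ = _ := by rw [prod_pow_eq_pow_sum, ← hS, ← pow_add, add_comm, Finset.card_add_card_compl]

theorem lift {D : Type} [Group D] (φ : G →* D) {p : ℕ} (hp : p.Prime) (hk : IsPGroup p φ.ker) {y z : G}
    (hy : ¬ p ∣ orderOf y) (hz : ¬ p ∣ orderOf z) (h : φ y = φ z) : IsConj y z := by
  have := Fact.mk hp
  obtain ⟨k, hk'⟩ := IsPGroup.iff_card.1 hk
  have co : ∀ y : G, ¬ p ∣ orderOf y → (Nat.card φ.ker).Coprime (Nat.card (zpowers y)) := fun y hy => by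
    rw [hk', Nat.card_zpowers]
    exact ((Nat.Prime.coprime_iff_not_dvd hp).2 hy).pow_left k
  obtain ⟨e, he, hle⟩ := H3.exists_conj_le_of_coprime (N := φ.ker) (H := zpowers y) (K := zpowers z)
    (le_normalizer_of_normal) (zpowers_le.2 (by
      rw [show y = y * z⁻¹ * z by group]
      exact mul_mem (mem_sup_left (by simp [MonoidHom.mem_ker, h])) (mem_sup_right (mem_zpowers z))))
    (co y hy) (co z hz) (Or.inl (have := hk.isNilpotent; inferInstance))
  have h1 := H3.conj_smul_le_iff.1 hle y (mem_zpowers y)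
  have h2 : e * y * e⁻¹ * z⁻¹ ∈ φ.ker ⊓ zpowers z :=
    mem_inf.2 ⟨by simp [MonoidHom.mem_ker, (MonoidHom.mem_ker).1 he, h], mul_mem h1 (inv_mem (mem_zpowers z))⟩
  rw [disjoint_iff.1 (Subgroup.disjoint_of_coprime_natCard (co z hz)), Subgroup.mem_bot, mul_inv_eq_one] at h2
  exact isConj_iff.2 ⟨e, h2⟩

omit [Finite G] [Fintype X] [DecidableEq X] in
theorem exists_hom [FaithfulSMul G X] {p k : ℕ} {x : G} (hx : x ^ p ^ k = 1) :
    ∃ φ : centralizer ({x} : Set G) →* Equiv.Perm (orbitRel.Quotient (zpowers x) X), IsPGroup p φ.ker := by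
  have cm : ∀ (c : centralizer ({x} : Set G)) (i : ℤ), Commute (c : G) (x ^ i) := fun c i =>
    (show Commute (c : G) x from mem_centralizer_singleton_iff.1 c.2).zpow_right i
  letI : MulAction (centralizer ({x} : Set G)) (orbitRel.Quotient (zpowers x) X) :=
    { smul := fun c => Quotient.map (fun a => (c : G) • a) (by
        rintro _ b ⟨⟨_, i, rfl⟩, rfl⟩
        exact ⟨⟨_, i, rfl⟩, by
          show x ^ i • (c : G) • b = (c : G) • x ^ i • b
          rw [← mul_smul, ← mul_smul, (cm c i).eq]⟩)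
      one_smul := fun ω => Quotient.inductionOn ω fun a => congrArg (Quotient.mk _) (one_smul G a)
      mul_smul := fun c d ω => Quotient.inductionOn ω fun a => congrArg (Quotient.mk _) (mul_smul (c : G) d a) }
  refine ⟨toPermHom _ _, fun c => ⟨k, Subtype.ext (Subtype.ext (eq_of_smul_eq_smul (α := X) fun a => ?_))⟩⟩
  obtain ⟨⟨_, i, rfl⟩, hi⟩ : (c.1 : G) • a ∈ orbit (zpowers x) a :=
    Quotient.exact (Equiv.congr_fun ((MonoidHom.mem_ker).1 c.2) (Quotient.mk _ a))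
  replace hi : x ^ i • a = (c.1 : G) • a := hi
  have : ∀ n : ℕ, (c.1 : G) ^ n • a = (x ^ i) ^ n • a := fun n => by
    induction n with
    | zero => simp
    | succ n ih =>
      rw [pow_succ', mul_smul, ih, ← mul_smul, ((cm c.1 i).pow_right n).eq, mul_smul, ← hi, ← mul_smul, pow_succ]
  show (c.1 : G) ^ p ^ k • a = (1 : G) • a
  rw [this, ← zpow_natCast, ← zpow_mul, mul_comm, zpow_mul, zpow_natCast, hx, one_zpow]

omit [Finite G] in
theorem Sm.of_dvd {D : Type} [Group D] {p : ℕ} {g : G} {d : D} (h : Sm p g) (hd : orderOf d ∣ orderOf g) : Sm p d :=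
  fun q hq hqd => h q hq (hqd.trans hd)

omit [Finite G] in
theorem ord_conj (c g : G) : orderOf (c * g * c⁻¹) = orderOf g := (MulAut.conj c).orderOf_eq g

theorem Cov.cen {p : ℕ} {a : ℝ} (h : Cov p a) (hp : (p + 1).Prime) [FaithfulSMul G X] {k : ℕ} {x : G}
    (hx : x ^ (p + 1) ^ k = 1) : ∃ T : Finset G, (T.card : ℝ) ≤ a ^ cyc X x ∧
      ∀ y : G, Commute y x → Sm p y → ∃ t ∈ T, IsConj t (x * y) := by
  classical
  obtain ⟨φ, hφ⟩ := exists_hom (X := X) hx
  obtain ⟨T, h1, h2⟩ := h φ.range (orbitRel.Quotient (zpowers x) X)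
  have : ∀ t : φ.range, ∃ z : centralizer ({x} : Set G), (∃ y, Sm p y ∧ φ y = t) → Sm p z ∧ φ z = t := fun t => by
    by_cases h : ∃ y, Sm p y ∧ φ y = t
    · exact ⟨h.choose, fun _ => h.choose_spec⟩
    · exact ⟨1, fun h' => absurd h' h⟩
  choose L hL using this
  refine ⟨T.image fun t => x * L t, le_trans (by exact_mod_cast card_image_le) h1, fun y hy hs => ?_⟩
  let y' : centralizer ({x} : Set G) := ⟨y, mem_centralizer_singleton_iff.2 hy⟩
  have hs' : Sm p y' := hs.of_dvd (orderOf_coe y').symm.dvd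
  obtain ⟨t, ht, hc⟩ := h2 (φ.rangeRestrict y') (hs'.of_dvd (orderOf_map_dvd _ _))
  obtain ⟨⟨_, d, rfl⟩, hd⟩ := isConj_iff.1 hc.symm
  have e : φ (d * y' * d⁻¹) = t := by rw [← hd, map_mul, map_mul, map_inv]; rfl
  have s1 : Sm p (d * y' * d⁻¹) := hs'.of_dvd (ord_conj d y').dvd
  obtain ⟨s2, e2⟩ := hL t ⟨_, s1, e⟩
  obtain ⟨c, hc'⟩ := isConj_iff.1 ((lift φ hp hφ (fun h => by have := s2 _ hp h; omega)
    (fun h => by have := s1 _ hp h; omega) (e2.trans e.symm)).trans (isConj_iff.2 ⟨d, rfl⟩).symm)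
  refine ⟨_, mem_image_of_mem _ ht, isConj_iff.2 ⟨c, ?_⟩⟩
  rw [← conj_mul, mul_inv_eq_iff_eq_mul.2 (mem_centralizer_singleton_iff.1 c.2)]
  exact congrArg (x * ·) (congrArg Subtype.val hc')

theorem Cov.step {p : ℕ} {a b : ℝ} (h : Cov p a) (ha : 1 ≤ a) (hab : a ≤ b)
    (hb : a ^ (p + 1) + 2 * (p + 1 : ℕ) * a ≤ b ^ (p + 1)) : Cov (p + 1) b := by
  classical
  intro G X _ _ _ _ _
  by_cases hp : (p + 1).Prime
  swap
  · obtain ⟨T, h1, h2⟩ := h G X
    refine ⟨T, h1.trans (by gcongr), fun g hg => h2 g fun q hq hd => ?_⟩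
    have := hg q hq hd
    have : q ≠ p + 1 := fun e => hp (e ▸ hq)
    omega
  have := Fact.mk hp
  have := Fintype.ofFinite X
  let P : Sylow (p + 1) G := default
  have := Fintype.ofFinite P
  have : ∀ x : P, ∃ T : Finset G, (T.card : ℝ) ≤ a ^ cyc X (x : G) ∧
      ∀ y : G, Commute y x → Sm p y → ∃ t ∈ T, IsConj t (x * y) := fun x => by
    obtain ⟨k, hk⟩ := P.isPGroup' x
    exact h.cen hp (k := k) (congrArg Subtype.val hk)
  choose T h1 h2 using this
  refine ⟨univ.biUnion T, ?_, fun g hg => ?_⟩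
  · rw [Nat.card_eq_fintype_card]
    refine le_trans ?_ ((sum_le_sum fun x _ => h1 x).trans (zsum P.isPGroup' ha hab hb))
    exact_mod_cast card_biUnion_le
  · obtain ⟨u, v, k, -, ⟨j, hj⟩, rfl, huv, hu, hv⟩ := H42.S3.parts g hp
    obtain ⟨Q, hQ⟩ := (show IsPGroup (p + 1) (zpowers u) from fun ⟨_, i, rfl⟩ => ⟨k, Subtype.ext (by
      show (u ^ i) ^ (p + 1) ^ k = 1
      rw [← zpow_natCast, ← zpow_mul, mul_comm, zpow_mul, zpow_natCast, hu, one_zpow])⟩).exists_le_sylow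
    obtain ⟨c, hc⟩ := exists_smul_eq G Q P
    have hx : c * u * c⁻¹ ∈ (P : Subgroup G) := hc ▸ H3.conj_mem_conj_smul c (hQ (mem_zpowers u))
    obtain ⟨t, ht, e⟩ := h2 ⟨_, hx⟩ (c * v * c⁻¹) (huv.symm.conj c) fun q hq hd => by
      rw [ord_conj] at hd
      have := hg q hq (hd.trans ((congrArg orderOf hj).symm.dvd.trans (orderOf_pow_dvd j)))
      have : q ≠ p + 1 := fun e => (Nat.Prime.coprime_iff_not_dvd hp).1 hv.symm (e ▸ hd)
      omega
    exact ⟨t, mem_biUnion.2 ⟨_, mem_univ _, ht⟩, e.trans (isConj_iff.2 ⟨c, (conj_mul ..).symm⟩).symm⟩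

theorem cov_one : Cov 1 1 := fun G X _ _ _ _ _ => ⟨{1}, by simp, fun g hg => ⟨1, by simp, by
  have : orderOf g = 1 := by
    by_contra h
    obtain ⟨q, hq, hd⟩ := Nat.exists_prime_and_dvd h
    have := hg q hq hd
    have := hq.two_le
    omega
  rw [orderOf_eq_one_iff.1 this]⟩⟩

theorem cov (k : ℕ) : Cov (k + 2) (17 / 4 - 2 / 2 ^ k) := by
  induction k with
  | zero => exact cov_one.step le_rfl (by norm_num) (by norm_num)
  | succ k ih =>
    have h0 : (0 : ℝ) < 2 ^ k := by positivity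
    have h1 : (2 : ℝ) / 2 ^ k ≤ 2 := div_le_self (by norm_num) (one_le_pow₀ (by norm_num))
    have e : (17 / 4 - 2 / 2 ^ (k + 1) : ℝ) = 17 / 4 - 2 / 2 ^ k + 1 / 2 ^ k := by field_simp; ring
    have h2 : (0 : ℝ) < 1 / 2 ^ k := by positivity
    rw [e]
    have h3 : (2 : ℝ) ≤ 17 / 4 - 2 / 2 ^ k := by linarith
    revert ih h3
    generalize (17 / 4 - 2 / 2 ^ k : ℝ) = a
    intro ih h3
    refine ih.step (by linarith) (by linarith) ?_
    have h5 : a ^ (k + 2 + 1) + (k + 2 + 1 : ℕ) * a ^ (k + 2 + 1 - 1) * (1 / 2 ^ k) ≤ (a + 1 / 2 ^ k) ^ (k + 2 + 1) :=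
      pow_add_mul_le_add_pow (by linarith) (by linarith) _
    refine le_trans ?_ h5
    have h6 : (2 : ℝ) ^ (k + 1) ≤ a ^ (k + 1) := by gcongr
    have h7 : 2 ≤ a ^ (k + 1) * (1 / 2 ^ k) := by
      rw [mul_one_div, le_div_iff₀ h0, ← pow_succ']
      exact h6
    rw [show k + 2 + 1 - 1 = k + 1 + 1 from rfl, pow_succ a (k + 1)]
    have h8 : (0 : ℝ) ≤ (k + 2 + 1 : ℕ) * a := by positivity
    nlinarith

theorem card_classes_le (G X : Type) [Group G] [Finite G] [Finite X] [MulAction G X] [FaithfulSMul G X] :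
    (Nat.card (ConjClasses G) : ℝ) ≤ (17 / 4) ^ Nat.card X := by
  obtain ⟨T, h1, h2⟩ := cov (Nat.card G) G X
  have h3 : Nat.card (ConjClasses G) ≤ T.card := by
    rw [← Fintype.card_coe T, ← Nat.card_eq_fintype_card]
    refine Nat.card_le_card_of_surjective (fun t : T => ConjClasses.mk t.1) fun c => ?_
    obtain ⟨g, rfl⟩ := ConjClasses.mk_surjective c
    obtain ⟨t, ht, e⟩ := h2 g fun q _ hd =>
      (Nat.le_of_dvd Nat.card_pos (hd.trans (orderOf_dvd_natCard g))).trans (Nat.le_add_right _ _)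
    exact ⟨⟨t, ht⟩, ConjClasses.mk_eq_mk_iff_isConj.2 e⟩
  have h0 : (0 : ℝ) < 2 ^ Nat.card G := by positivity
  have h4 : (2 : ℝ) / 2 ^ Nat.card G ≤ 2 := div_le_self (by norm_num) (one_le_pow₀ (by norm_num))
  have h5 : (0 : ℝ) < 2 / 2 ^ Nat.card G := by positivity
  refine (le_trans (by exact_mod_cast h3) h1).trans (pow_le_pow_left₀ (by linarith) (by linarith) _)

theorem main (d : ℕ) (hd : 1 ≤ d) (G : Subgroup (Equiv.Perm (Fin d))) : Nat.card (ConjClasses G) ≤ 5 ^ (d - 1) := by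
  by_cases h : d < 10
  · have h1 : Nat.card (ConjClasses G) ≤ Nat.card G := Nat.card_le_card_of_surjective _ ConjClasses.mk_surjective
    have h2 : Nat.card G ≤ d.factorial := by
      have := Nat.le_of_dvd Nat.card_pos (card_subgroup_dvd_card G)
      rwa [Nat.card_perm, Nat.card_eq_fintype_card (α := Fin d), Fintype.card_fin] at this
    refine h1.trans (h2.trans ?_)
    interval_cases d <;> decide
  · obtain ⟨k, rfl⟩ : ∃ k, d = k + 10 := ⟨d - 10, by omega⟩
    have h1 := card_classes_le G (Fin (k + 10))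
    rw [Nat.card_eq_fintype_card (α := Fin _), Fintype.card_fin] at h1
    have h2 : ((17 : ℝ) / 4) ^ (k + 10) ≤ 5 ^ (k + 9) := by
      rw [pow_add, pow_add]
      gcongr <;> norm_num
    exact_mod_cast h1.trans h2

end H62.KR
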