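import Cfsg.Agent.Lib.KR62.Der
import Cfsg.Agent.Lib.SN.ClassNum
import Cfsg.Agent.Lib.H81.ClassNum
import Cfsg.Agent.S3681

/-! Class numbers of permutation groups of small degree. -/

set_option autoImplicit false
set_option linter.unusedSectionVars false

namespace H62.KD

open Subgroup MulAction Finset Equiv

theorem k_le_surj {G K : Type*} [Group G] [Group K] [Finite G] (f : G →* K) (hf : Function.Surjective f) :
    Nat.card (ConjClasses K) ≤ Nat.card (ConjClasses G) :=
  Nat.card_le_card_of_surjective _ (ConjClasses.map_surjective hf)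

variable {α : Type*} [Fintype α] [DecidableEq α] {A : Subgroup (Perm α)} {S : Finset α}

theorem mem_zp (h : ∀ x ∉ S, ∀ a ∈ A, a x = x) (hn : S.card.Prime) {y c : A} (hy : orderOf y = S.card)
    (hc : c * y = y * c) : c ∈ zpowers y := by
  rw [← Subgroup.orderOf_coe] at hy
  have s1 : (y : Perm α).support ⊆ S := fun u hu => by_contra fun e => Perm.mem_support.1 hu (h u e _ y.2)
  have cy : (y : Perm α).IsCycle :=
    Perm.isCycle_of_prime_order (hy ▸ hn) (by have := card_le_card s1; have := hn.pos; omega)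
  have s2 : (y : Perm α).support = S := eq_of_subset_of_card_le s1 (by rw [← cy.orderOf, hy])
  obtain ⟨z, hz⟩ := card_pos.1 hn.pos
  have m : ∀ u ∈ S, ∃ i : ℤ, ((y : Perm α) ^ i) z = u := fun u hu =>
    cy.exists_zpow_eq (Perm.mem_support.1 (s2 ▸ hz)) (Perm.mem_support.1 (s2 ▸ hu))
  obtain ⟨i, hi⟩ := m _ (mem_of_fix (fun u hu => h u hu _ c.2) hz)
  refine ⟨i, Subtype.ext (Equiv.ext fun u => ?_)⟩
  by_cases hu : u ∈ S
  · obtain ⟨j, rfl⟩ := m u hu
    have : Commute (c : Perm α) y := congrArg Subtype.val hc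
    rw [← Perm.mul_apply (c : Perm α), (this.zpow_right j).eq, Perm.mul_apply, ← hi]
    simp [← Perm.mul_apply, ← zpow_add, add_comm]
  · rw [h u hu _ c.2, h u hu _ (Subtype.prop _)]

/-- groups of prime degree -/
theorem prime_deg (h : ∀ x ∉ S, ∀ a ∈ A, a x = x) (hn : S.card.Prime) {m : ℕ} (hm : Nat.card A = S.card * m) :
    Nat.card (ConjClasses A) ≤ max S.card m := by
  classical
  have := Fintype.ofFinite A
  have hN : 0 < Nat.card A := Nat.card_pos
  have key : ∀ x ∈ univ.erase (1 : A), Nat.card (centralizer {x}) ≤ max S.card m := fun x hx => by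
    by_cases e : S.card ∣ Nat.card (centralizer {x})
    · have := Fact.mk hn
      obtain ⟨y, hy⟩ := exists_prime_orderOf_dvd_card' _ e
      rw [← Subgroup.orderOf_coe] at hy
      have h1 := orderOf_dvd_of_mem_zpowers (mem_zp h hn hy (y.2 x rfl))
      rw [hy, Nat.dvd_prime hn, orderOf_eq_one_iff] at h1
      have h2 := h1.resolve_left (ne_of_mem_erase hx)
      exact le_max_of_le_left ((card_le_of_le fun c hc => mem_zp h hn h2 (hc x rfl).symm).trans_eq
        ((Nat.card_zpowers x).trans h2))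
    · refine le_max_of_le_right (Nat.le_of_dvd (Nat.pos_of_mul_pos_left (hm ▸ hN))
        (((Nat.Prime.coprime_iff_not_dvd hn).2 e).symm.dvd_of_dvd_mul_left (hm ▸ card_subgroup_dvd_card _)))
  have h1 := H81.card_conjClasses_mul_card (G := A)
  rw [← sum_erase_add _ _ (mem_univ 1)] at h1
  have h2 := sum_le_card_nsmul _ _ _ key
  rw [card_erase_of_mem (mem_univ _), card_univ, ← Nat.card_eq_fintype_card, smul_eq_mul] at h2
  have h3 : Nat.card (centralizer {(1 : A)}) ≤ Nat.card A := card_le_card_group _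
  have h4 : 0 < max S.card m := lt_max_of_lt_left hn.pos
  obtain ⟨N, e⟩ : ∃ N, Nat.card A = N + 1 := Nat.exists_eq_add_one.2 hN
  rw [e] at h1 h2 h3
  rw [Nat.add_sub_cancel] at h2
  by_contra l
  have : (max S.card m + 1) * (N + 1) ≤ Nat.card (ConjClasses A) * (N + 1) := Nat.mul_le_mul_right _ (not_le.1 l)
  nlinarith

theorem ct_five : (H5.SN.CT 5).ncard ≤ 7 := by
  have h : H5.SN.CT 5 ⊆ (({0, {2}, {3}, {4}, {5}, {2, 2}, {2, 3}, {3, 2}} : Finset (Multiset ℕ)) :
      Set (Multiset ℕ)) := by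
    rintro m ⟨h1, h2⟩
    have hle : m.card • 2 ≤ m.sum := Multiset.card_nsmul_le_sum h2
    rw [smul_eq_mul] at hle
    have hc : m.card = 0 ∨ m.card = 1 ∨ m.card = 2 := by omega
    rcases hc with hc | hc | hc
    · rw [Multiset.card_eq_zero.mp hc]; simp
    · obtain ⟨a, rfl⟩ := Multiset.card_eq_one.mp hc
      have := h2 a (by simp)
      rw [Multiset.sum_singleton] at h1
      interval_cases a <;> simp
    · obtain ⟨a, b, rfl⟩ := Multiset.card_eq_two.mp hc
      have ha := h2 a (by simp)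
      have hb := h2 b (by simp)
      simp only [Multiset.insert_eq_cons, Multiset.sum_cons, Multiset.sum_singleton] at h1
      have : (a = 2 ∧ b = 2) ∨ (a = 2 ∧ b = 3) ∨ (a = 3 ∧ b = 2) := by omega
      rcases this with ⟨rfl, rfl⟩ | ⟨rfl, rfl⟩ | ⟨rfl, rfl⟩ <;> simp
  refine (Set.ncard_le_ncard h (Finset.finite_toSet _)).trans ?_
  rw [Set.ncard_coe_finset]
  decide

theorem k_big (hA : alternatingGroup α ≤ A) {n N : ℕ} (hn : Fintype.card α = n + 2)
    (h1 : Nat.card (ConjClasses (Perm (Fin (n + 2)))) ≤ N)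
    (h2 : Nat.card (ConjClasses (alternatingGroup (Fin (n + 2)))) ≤ N) : Nat.card (ConjClasses A) ≤ N := by
  have e := (Fintype.equivFinOfCardEq hn).symm
  have : Nontrivial α := Fintype.one_lt_card_iff_nontrivial.1 (by omega)
  rcases (Nat.dvd_prime Nat.prime_two).1 (alternatingGroup.index_eq_two (α := α) ▸ index_dvd_of_le hA) with h | h
  · rw [index_eq_one.1 h]
    exact (k_le_surj (e.permCongrHom.trans topEquiv.symm).toMonoidHom (MulEquiv.surjective _)).trans h1
  · rw [Perm.eq_alternatingGroup_of_index_eq_two h]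
    exact (k_le_surj e.altCongrHom.toMonoidHom (MulEquiv.surjective _)).trans h2

theorem k_four (hA : alternatingGroup α ≤ A) (hn : Fintype.card α = 4) : Nat.card (ConjClasses A) ≤ 5 :=
  k_big hA (n := 2) hn (by rw [Nat.card_eq_fintype_card]; decide +kernel)
    (by rw [Nat.card_eq_fintype_card]; decide +kernel)

theorem k_five (hA : alternatingGroup α ≤ A) (hn : Fintype.card α = 5) : Nat.card (ConjClasses A) ≤ 7 :=
  have h := (H5.SN.card_conjClasses_perm 5).1.trans_le ct_five
  k_big hA (n := 3) hn h ((H5.SN.card_conjClasses_alt_lt le_rfl).le.trans h)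

theorem k_six (hA : alternatingGroup α ≤ A) (hn : Fintype.card α = 6) : Nat.card (ConjClasses A) ≤ 14 :=
  have h := (H5.SN.card_conjClasses_perm 6).1.trans_le
    ((H5.SN.ncard_CT_succ 5).trans (Nat.mul_le_mul_left 2 ct_five))
  k_big hA (n := 4) hn h ((H5.SN.card_conjClasses_alt_lt (by norm_num)).le.trans h)

theorem bochert (h : IsPreprimitive A α) (hA : ¬ alternatingGroup α ≤ A) :
    Nat.card A * Nat.factorial ((Fintype.card α + 1) / 2) ≤ Nat.factorial (Fintype.card α) :=
  Cfsg.Agent.S3681.result h fun k => hA fun g hg => by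
    obtain ⟨a, rfl⟩ := k hg
    exact a.2

theorem prim_of_prime (hA : ∀ x y : α, ∃ a ∈ A, a x = y) (hn : (Fintype.card α).Prime) : IsPreprimitive A α :=
  have : IsPretransitive A α := ⟨fun x y => have ⟨a, h, e⟩ := hA x y; ⟨⟨a, h⟩, e⟩⟩
  IsPreprimitive.of_prime_card (Nat.card_eq_fintype_card (α := α) ▸ hn)

theorem prim_of_two (hA : ∀ x y : α, ∃ a ∈ A, a x = y) {z γ : α}
    (h : univ.erase z ⊆ ob (A ⊓ stabilizer (Perm α) z) γ) : IsPreprimitive A α := by
  refine isPreprimitive_of_is_two_pretransitive (is_two_pretransitive_iff.2 fun {a b c d} h1 h2 => ?_)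
  have : ∀ a b : α, a ≠ b → ∃ g ∈ A, g z = a ∧ g γ = b := fun a b e => by
    obtain ⟨g, hg, rfl⟩ := hA z a
    obtain ⟨k, hk, e'⟩ := mem_ob.1 (h (mem_erase.2 ⟨(fun l => e (by rw [← l]; simp) : g⁻¹ b ≠ z), mem_univ _⟩))
    exact ⟨g * k, mul_mem hg hk.1, congrArg g hk.2, by simp [e']⟩
  obtain ⟨g, hg, rfl, rfl⟩ := this a b h1
  obtain ⟨k, hk, rfl, rfl⟩ := this c d h2
  exact ⟨⟨k * g⁻¹, mul_mem hk (inv_mem hg)⟩, by simp [Subgroup.smul_def], by simp [Subgroup.smul_def]⟩

end H62.KD
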