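import Cfsg.Agent.Lib.KR62.Small
import Cfsg.Agent.Lib.KR62.Tab

/-! A permutation group of degree `n ≥ 3` and order prime to 3, 5 or 7 has at most `3 ^ ((n - 1) / 2)` classes. -/

set_option autoImplicit false
set_option linter.unusedSectionVars false

namespace H62.KD

open Subgroup MulAction Finset Equiv

universe u

/-- the claim for transitive groups -/
def Qt (p : ℕ) (f : ℕ → ℚ) (n : ℕ) : Prop :=
  ∀ (β : Type u) [Fintype β] [DecidableEq β] (A : Subgroup (Perm β)), Fintype.card β = n → ¬ p ∣ Nat.card A →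
    (∀ x y : β, ∃ a ∈ A, a x = y) → (Nat.card (ConjClasses A) : ℚ) ≤ f n

/-- the claim for groups moving at most the points of a given set -/
def Pt (p : ℕ) (f : ℕ → ℚ) (n : ℕ) : Prop :=
  ∀ (β : Type u) [Fintype β] [DecidableEq β] (A : Subgroup (Perm β)) (S : Finset β), S.card = n → ¬ p ∣ Nat.card A →
    (∀ x ∉ S, ∀ a ∈ A, a x = x) → (Nat.card (ConjClasses A) : ℚ) ≤ f n

theorem eqns_sqrt : True := by
  have := @Qt.eq_1.{0}
  have := @Pt.eq_1.{0}
  trivial

variable {α : Type u} [Fintype α] [DecidableEq α] {A : Subgroup (Perm α)} {S : Finset α} {p : ℕ} {f : ℕ → ℚ}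

theorem k_one (h : ∀ a ∈ A, ∀ x, a x = x) : (Nat.card (ConjClasses A) : ℚ) ≤ 1 := by
  have : Subsingleton A := ⟨fun a b => Subtype.ext (Equiv.ext fun x => (h _ a.2 x).trans (h _ b.2 x).symm)⟩
  exact_mod_cast (Nat.card_le_card_of_surjective _ ConjClasses.mk_surjective).trans
    (Finite.card_le_one_iff_subsingleton.2 this)

theorem dec (hp : ¬ p ∣ Nat.card A) (h : ∀ x ∉ S, ∀ a ∈ A, a x = x) (x : α) (f0 : ∀ n, 0 ≤ f n)
    (hQ : Qt.{u} p f (ob A x).card) (hP : Pt.{u} p f (S \ ob A x).card) :
    (Nat.card (ConjClasses A) : ℚ) ≤ f (ob A x).card * f (S \ ob A x).card := by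
  let ρ : A →* Perm {y // y ∈ ob A x} := MonoidHom.mk' (fun a => (a : Perm α).subtypePerm fun y =>
    ⟨fun k => by simpa using iv_ob A x _ (inv_mem a.2) _ k, iv_ob A x _ a.2 y⟩) fun a b => Equiv.ext fun y => rfl
  have h1 := hQ _ ρ.range (Fintype.card_coe _) (fun k => hp (k.trans (card_range_dvd ρ))) fun y z => by
    obtain ⟨a, ha, e⟩ := mem_ob.1 ((ob_eq y.2).ge z.2)
    exact ⟨_, ⟨⟨a, ha⟩, rfl⟩, Subtype.ext e⟩
  have h2 := hP _ (ρ.ker.map A.subtype) _ rfl (not_dvd_of_le hp (map_subtype_le _)) fun y hy => by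
    rintro _ ⟨a, ha, rfl⟩
    by_cases e : y ∈ ob A x
    · exact congrArg Subtype.val (Equiv.congr_fun (MonoidHom.mem_ker.1 ha) ⟨y, e⟩)
    · exact h y (fun k => hy (mem_sdiff.2 ⟨k, e⟩)) _ a.2
  have h3 := (H81.card_conjClasses_le_mul ρ.ker).trans (Nat.mul_le_mul
    (k_le_surj (ρ.ker.equivMapOfInjective _ A.subtype_injective).symm.toMonoidHom (MulEquiv.surjective _))
    (k_le_surj (QuotientGroup.quotientKerEquivRange ρ).symm.toMonoidHom (MulEquiv.surjective _)))
  refine (Nat.cast_le.2 h3).trans ?_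
  rw [Nat.cast_mul, mul_comm]
  exact mul_le_mul h1 h2 (Nat.cast_nonneg _) (f0 _)

theorem main (hn : 3 ≤ Fintype.card α) (hp : p = 3 ∨ p = 5 ∨ p = 7) (hA : ¬ p ∣ Nat.card A) :
    Nat.card (ConjClasses A) ^ 2 ≤ 3 ^ (Fintype.card α - 1) := by
  obtain ⟨w, f, f0, fm, fT, v0, v1, v3, v4, v5, v6, v7, fin⟩ := exists_tab (p := p) (by simpa using hp)
  suffices h : ∀ n, Qt.{u} p f n ∧ Pt.{u} p f n by
    have := (h _).2 α A univ rfl hA fun x hx => absurd (mem_univ x) hx
    exact_mod_cast (pow_le_pow_left₀ (Nat.cast_nonneg _) this 2).trans (fin _ hn)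
  intro n
  induction n using Nat.strong_induction_on with
  | h n ih =>
  have hQ : Qt.{u} p f n := by
    intro β _ _ A hn hA ht
    rcases isEmpty_or_nonempty β with _ | ⟨⟨z⟩⟩
    · exact (k_one fun _ _ x => isEmptyElim x).trans (hn ▸ Fintype.card_eq_zero (α := β) ▸ v0)
    have c1 : (univ.erase z).card + 1 = n := by rw [card_erase_add_one (mem_univ z), card_univ, hn]
    rcases (univ.erase z).eq_empty_or_nonempty with e | ⟨γ, hγ⟩
    · have : ∀ y, y = z := fun y => by_contra fun k => notMem_empty y (e ▸ mem_erase.2 ⟨k, mem_univ y⟩)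
      exact (k_one fun a _ x => (this _).trans (this x).symm).trans (by rw [← c1, e]; exact v1)
    obtain ⟨H, hH⟩ : ∃ H, H = A ⊓ stabilizer (Perm β) z := ⟨_, rfl⟩
    have pH : ¬ p ∣ Nat.card H := not_dvd_of_le hA (hH ▸ inf_le_left)
    have fH : ∀ x ∉ univ.erase z, ∀ a ∈ H, a x = x := fun x hx a ha => by
      obtain rfl : x = z := by simpa using hx
      exact (hH ▸ ha : a ∈ A ⊓ stabilizer (Perm β) x).2
    have iH : Iv H (univ.erase z) := fun a ha y hy => mem_of_fix (fun u hu => fH u hu a ha) hy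
    have c2 := card_sdiff_add_card_eq_card (iH.ob_sub hγ)
    have c3 := card_pos.2 ⟨γ, self_ob H γ⟩
    have c4 := card_ob A z
    have c5 := card_ob H γ
    have c6 : Nat.card A ∣ n.factorial := by
      rw [← hn, ← Fintype.card_perm, ← Nat.card_eq_fintype_card]; exact card_subgroup_dvd_card A
    have pn := adm hA z
    rw [eq_univ_of_forall fun y => mem_ob.2 (ht z y), card_univ, hn] at c4 pn
    rw [← hH] at c4
    have k1 := dec pH fH γ f0 (ih _ (by omega)).1 (ih _ (by omega)).2
    obtain ⟨k2, k3, -⟩ := closure w pH _ (iH.sdiff (iv_ob H γ))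
    have k4 := trans_le w hA ht z hH
    rw [P_step w hγ] at k4
    replace k4 := k4.trans (add_le_add_right (add_le_add (mul_le_mul_of_nonneg_left k3 (w.e0 _))
      (mul_le_mul_of_nonneg_left k2 (w.q0 _))) _)
    have pd : n.Prime → Nat.card (ConjClasses A) ≤ max n (Nat.card H) := fun l => by
      have := prime_deg (A := A) (S := univ) (fun x hx => absurd (mem_univ x) hx) (by rwa [card_univ, hn])
        (by rw [card_univ, hn, c4])
      rwa [card_univ, hn] at this
    have cs : ∀ {N : ℕ}, Nat.card (ConjClasses A) ≤ N → (Nat.card (ConjClasses A) : ℚ) ≤ N := Nat.cast_le.2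
    by_cases sp : Sp p n (univ.erase z \ ob H γ).card
    swap
    · obtain rfl : n = (ob H γ).card + (univ.erase z \ ob H γ).card + 1 := by omega
      exact fT _ _ _ (adm pH γ) pn sp (k4.trans (add_le_add_left k1 _))
    rcases sp with rfl | ⟨rfl, e⟩ | ⟨rfl, rfl⟩ | ⟨rfl, rfl, e⟩ | ⟨rfl, rfl⟩
    · have := Nat.le_of_dvd (by decide) c6
      have : Nat.card H ≤ 3 := by simp only [Nat.factorial] at this; omega
      exact (cs ((pd Nat.prime_three).trans (max_le le_rfl this))).trans (v3 fun l => pn (l ▸ dvd_rfl))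
    · refine (cs (k_four (Perm.alternatingGroup_le_of_index_le_two ?_) hn)).trans v4
      have h1 := A.index_mul_card
      have h2 : 0 < Nat.card (H ⊓ stabilizer (Perm β) γ : Subgroup (Perm β)) := Nat.card_pos
      rw [← c4, ← c5, show (ob H γ).card = 3 by omega, Nat.card_eq_fintype_card (α := Perm β), Fintype.card_perm,
        hn] at h1
      simp only [Nat.factorial] at h1
      nlinarith
    · by_cases l : alternatingGroup β ≤ A
      · exact (cs ((k_five l hn).trans (by norm_num : 7 ≤ 8))).trans (v5 rfl)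
      have := bochert (prim_of_prime ht (hn ▸ Nat.prime_five)) l
      rw [hn] at this
      have : Nat.card H ≤ 8 := by simp only [Nat.factorial] at this; omega
      exact (cs ((pd Nat.prime_five).trans (max_le (by norm_num) this))).trans (v5 rfl)
    · by_cases l : alternatingGroup β ≤ A
      · exact (cs (k_six l hn)).trans (v6 rfl).2
      have := bochert (prim_of_two ht (hH ▸ sdiff_eq_empty_iff_subset.1 (card_eq_zero.1 e))) l
      rw [hn] at this
      have a5 : (ob H γ).card = 5 := by omega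
      have s5 : (univ.erase z).card = 5 := by omega
      have h1 := prime_deg fH (s5 ▸ Nat.prime_five) (s5 ▸ a5 ▸ c5.symm)
      rw [a5] at c5 k4
      rw [s5, max_eq_left (by simp only [Nat.factorial] at this; omega)] at h1
      rw [e] at k4
      exact k4.trans ((add_le_add_left (Nat.cast_le.2 h1) _).trans (v6 rfl).1)
    · have p7 : Nat.Prime 7 := by norm_num
      have : Nontrivial β := Fintype.one_lt_card_iff_nontrivial.1 (by omega)
      have := bochert (prim_of_prime ht (hn ▸ p7)) fun l => hA (dvd_trans (by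
        have := two_mul_nat_card_alternatingGroup (α := β)
        rw [Nat.card_eq_fintype_card (α := Perm β), Fintype.card_perm, hn] at this
        simp only [Nat.factorial] at this; omega) (card_dvd_of_le l))
      rw [hn] at this
      have h1 : Nat.card H ≤ 30 := by simp only [Nat.factorial] at this; omega
      refine (cs ((pd p7).trans (max_le (by norm_num) ?_))).trans (v7 rfl)
      rw [← c4] at c6
      by_contra l
      rw [not_le] at l
      revert pH c6
      generalize Nat.card H = m at l h1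
      interval_cases m <;> decide
  refine ⟨hQ, fun β _ _ A S hn hA h => ?_⟩
  rcases S.eq_empty_or_nonempty with rfl | ⟨x, hx⟩
  · exact (k_one fun a ha x => h x (notMem_empty x) a ha).trans (hn ▸ v0)
  have c2 := card_sdiff_add_card_eq_card (Iv.ob_sub (fun a ha y hy => mem_of_fix (fun u hu => h u hu a ha) hy) hx)
  have c3 := card_pos.2 ⟨x, self_ob A x⟩
  refine (dec hA h x f0 ?_ (ih _ (by omega)).2).trans ((fm _ _).trans_eq (congrArg f (by omega)))
  rcases (show (ob A x).card < n ∨ (ob A x).card = n by omega) with l | l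
  exacts [(ih _ l).1, l ▸ hQ]

end H62.KD
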